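import Mathlib

/-!
# Invariants of modules of small dimension for groups with a T.I. Sylow subgroup

If `P` is a T.I. Sylow `p`-subgroup of `G`, `N_G(P) ≤ H`, and `M` is a complex `G`-module of
dimension at most `|P|` containing a nonzero `G`-invariant vector, then `H`-invariant vectors of `M`
are `G`-invariant.  The proof reduces a lattice over a valuation ring of `ℂ` above `p`.
-/

set_option autoImplicit false

namespace Cfsg.Agent.Lib.Helper3

open Finset
open scoped Pointwise

/-- In the group algebra of a `p`-group over a field of characteristic `p`, every nonzero left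
ideal contains the sum of all group elements. -/
theorem exists_conv_eq_one {P : Type*} [Group P] [Fintype P] {p : ℕ} [Fact p.Prime]
    (hP : IsPGroup p P) {k : Type*} [Field k] [CharP k p] (c : P → k) (hc : c ≠ 0) :
    ∃ a : P → k, ∀ z : P, ∑ y : P, a y * c (y⁻¹ * z) = 1 := by
  classical
  let _ : Algebra (ZMod p) k := ZMod.algebra k p
  -- the additive map
  let φ : (P → ZMod p) →+ (P → k) :=
    { toFun := fun n z => ∑ y : P, algebraMap (ZMod p) k (n y) * c (y⁻¹ * z)
      map_zero' := by ext z; simp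
      map_add' := by
        intro m n; ext z
        simp [add_mul, Finset.sum_add_distrib] }
  let _ : MulAction P (P → k) := arrowAction
  have hsm : ∀ (x : P) (g : P → k) (z : P), (x • g) z = g (x⁻¹ * z) := fun x g z => rfl
  let W : SubMulAction P (P → k) :=
    { carrier := Set.range φ
      smul_mem' := by
        rintro x _ ⟨n, rfl⟩
        refine ⟨fun y => n (x⁻¹ * y), ?_⟩
        ext z
        rw [hsm]
        show ∑ y : P, algebraMap (ZMod p) k (n (x⁻¹ * y)) * c (y⁻¹ * z)
          = ∑ y : P, algebraMap (ZMod p) k (n y) * c (y⁻¹ * (x⁻¹ * z))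
        rw [← Equiv.sum_comp (Equiv.mulLeft x)]
        apply Finset.sum_congr rfl
        intro y _
        simp [mul_assoc] }
  have hWfin : Finite W := by
    have : Finite (Set.range φ) := Set.finite_range φ
    exact this
  have hcard : Nat.card W = Nat.card φ.range := rfl
  have hdvd : Nat.card W ∣ p ^ Fintype.card P := by
    rw [hcard]
    have h1 := AddSubgroup.card_range_dvd φ
    have h2 : Nat.card (P → ZMod p) = p ^ Fintype.card P := by
      rw [Nat.card_eq_fintype_card, Fintype.card_pi, Finset.prod_const, ZMod.card,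
        Finset.card_univ]
    rwa [h2] at h1
  have hcW : c ∈ Set.range φ := by
    refine ⟨Pi.single 1 1, ?_⟩
    ext z
    show ∑ y : P, algebraMap (ZMod p) k ((Pi.single 1 1 : P → ZMod p) y) * c (y⁻¹ * z) = c z
    rw [Finset.sum_eq_single 1]
    · simp
    · intro y _ hy
      simp [Pi.single_eq_of_ne hy]
    · simp
  have h0W : (0 : P → k) ∈ Set.range φ := ⟨0, map_zero φ⟩
  have hpW : p ∣ Nat.card W := by
    obtain ⟨j, hj, hj2⟩ := (Nat.dvd_prime_pow (Fact.out : p.Prime)).1 hdvd
    rcases Nat.eq_zero_or_pos j with rfl | hjpos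
    · exfalso
      rw [pow_zero] at hj2
      have hsub := (Nat.card_eq_one_iff_unique.1 hj2).1
      have := hsub.elim (⟨c, hcW⟩ : W) ⟨0, h0W⟩
      exact hc (congrArg Subtype.val this)
    · rw [hj2]; exact dvd_pow_self p hjpos.ne'
  have hfix0 : (⟨0, h0W⟩ : W) ∈ MulAction.fixedPoints P W := by
    intro x
    apply Subtype.ext
    ext z
    rfl
  obtain ⟨⟨g, n, hn⟩, hgfix, hg0⟩ :=
    hP.exists_fixed_point_of_prime_dvd_card_of_fixed_point W hpW hfix0
  have hgconst : ∀ z, g z = g 1 := by
    intro z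
    have h1 := congrArg Subtype.val (hgfix z)
    have h2 := congrFun h1 z
    have h3 : g (z⁻¹ * z) = g z := h2
    rw [← h3, inv_mul_cancel]
  have hg1 : g 1 ≠ 0 := by
    intro h
    apply hg0
    apply Subtype.ext
    ext z
    show (0 : k) = g z
    rw [hgconst z, h]
  refine ⟨fun y => (g 1)⁻¹ * algebraMap (ZMod p) k (n y), fun z => ?_⟩
  have h4 : ∑ y : P, algebraMap (ZMod p) k (n y) * c (y⁻¹ * z) = g z := congrFun hn z
  simp_rw [mul_assoc]
  rw [← Finset.mul_sum, h4, hgconst z, inv_mul_cancel₀ hg1]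

theorem exists_valuationSubring (p : ℕ) (hp : p.Prime) :
    ∃ B : ValuationSubring ℂ, (p : ℂ) ∈ B.nonunits := by
  let A : Subring ℂ := (algebraMap ℤ ℂ).range
  let pA : A := ⟨(p : ℂ), ⟨(p : ℤ), by simp⟩⟩
  have hI : Ideal.span {pA} ≠ ⊤ := by
    intro h
    rw [Ideal.span_singleton_eq_top] at h
    obtain ⟨⟨b, ⟨m, hm⟩⟩, hb⟩ := isUnit_iff_exists_inv.1 h
    have h1 : (p : ℂ) * b = 1 := congrArg Subtype.val hb
    rw [← hm] at h1
    have h2 : ((p : ℤ) * m : ℤ) = 1 := by
      have : (((p : ℤ) * m : ℤ) : ℂ) = ((1 : ℤ) : ℂ) := by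
        push_cast
        simpa using h1
      exact_mod_cast this
    have h3 : (p : ℤ) ∣ 1 := ⟨m, h2.symm⟩
    have h4 : p ∣ 1 := by exact_mod_cast h3
    exact hp.one_lt.ne' (Nat.dvd_one.1 h4)
  obtain ⟨B, -, hB⟩ := Ideal.image_subset_nonunits_valuationSubring _ hI
  exact ⟨B, hB ⟨pA, Ideal.subset_span rfl, rfl⟩⟩

theorem sum_mem_smul {P : Type*} [Group P] [Fintype P] {p : ℕ} [Fact p.Prime] (hP : IsPGroup p P)
    (B : ValuationSubring ℂ) (hB : (p : ℂ) ∈ B.nonunits)
    {M : Type*} [AddCommGroup M] [Module ℂ M] (τ : P →* (M →ₗ[ℂ] M)) (v : M)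
    (hdep : ¬ LinearIndependent ℂ (fun x : P => τ x v))
    (L : Submodule B M) (hL : ∀ x : P, τ x v ∈ L) :
    ∑ x : P, τ x v ∈ (IsLocalRing.maximalIdeal B) • L := by
  classical
  rw [Fintype.not_linearIndependent_iff] at hdep
  obtain ⟨c, hsum, x₁, hx₁⟩ := hdep
  obtain ⟨x₀, -, hx₀⟩ := Finset.exists_max_image Finset.univ (fun x => B.valuation (c x))
    ⟨x₁, Finset.mem_univ _⟩
  have hc0 : c x₀ ≠ 0 := by
    intro h
    have h1 := hx₀ x₁ (Finset.mem_univ _)
    rw [h, map_zero] at h1
    have h2 : B.valuation (c x₁) = 0 := le_antisymm h1 zero_le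
    exact hx₁ ((map_eq_zero _).1 h2)
  have hmem : ∀ x, c x / c x₀ ∈ B := by
    intro x
    rw [← ValuationSubring.valuation_le_one_iff, map_div₀]
    exact div_le_one_of_le₀ (hx₀ x (Finset.mem_univ _)) zero_le
  let c' : P → B := fun x => ⟨c x / c x₀, hmem x⟩
  have hc'sum : ∑ x : P, c' x • τ x v = 0 := by
    have h1 : ∀ x : P, c' x • τ x v = (c x₀)⁻¹ • (c x • τ x v) := by
      intro x
      show (c x / c x₀) • τ x v = _
      rw [smul_smul, div_eq_inv_mul]
    simp_rw [h1]
    rw [← Finset.smul_sum, hsum, smul_zero]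
  let k := IsLocalRing.ResidueField B
  have hpk : ((p : ℕ) : k) = 0 := by
    obtain ⟨hpB, hpm⟩ := (ValuationSubring.mem_nonunits_iff_exists_mem_maximalIdeal).1 hB
    have h1 : IsLocalRing.residue B ⟨(p : ℂ), hpB⟩ = 0 := (IsLocalRing.residue_eq_zero_iff _).2 hpm
    have h2 : (⟨(p : ℂ), hpB⟩ : B) = ((p : ℕ) : B) := by
      apply Subtype.ext; simp
    rw [h2, map_natCast] at h1
    exact h1
  have hchar : CharP k p := by
    obtain ⟨q, hq⟩ := CharP.exists k
    have h1 : q ∣ p := (CharP.cast_eq_zero_iff k q p).1 hpk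
    rcases (Nat.dvd_prime (Fact.out : p.Prime)).1 h1 with h2 | h2
    · exact absurd h2 (CharP.char_ne_one k q)
    · rwa [h2] at hq
  have hcbar : (fun x => IsLocalRing.residue B (c' x)) ≠ 0 := by
    intro h
    have h1 := congrFun h x₀
    have h2 : c' x₀ = 1 := by
      apply Subtype.ext
      show c x₀ / c x₀ = 1
      exact div_self hc0
    simp only [h2, map_one, Pi.zero_apply] at h1
    exact one_ne_zero h1
  obtain ⟨abar, habar⟩ := exists_conv_eq_one hP (fun x => IsLocalRing.residue B (c' x)) hcbar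
  choose a ha using fun y => IsLocalRing.residue_surjective (abar y)
  let d : P → B := fun z => 1 - ∑ y : P, a y * c' (y⁻¹ * z)
  have hd : ∀ z, d z ∈ IsLocalRing.maximalIdeal B := by
    intro z
    rw [← IsLocalRing.residue_eq_zero_iff]
    simp only [d, map_sub, map_one, map_sum, map_mul, ha]
    rw [habar z, sub_self]
  have hzero : ∑ z : P, (∑ y : P, a y * c' (y⁻¹ * z)) • τ z v = 0 := by
    simp_rw [Finset.sum_smul]
    rw [Finset.sum_comm]
    apply Finset.sum_eq_zero
    intro y _
    rw [← Equiv.sum_comp (Equiv.mulLeft y)]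
    have h1 : ∀ x : P, (a y * c' (y⁻¹ * (Equiv.mulLeft y) x)) • τ ((Equiv.mulLeft y) x) v
        = a y • τ y (c' x • τ x v) := by
      intro x
      rw [Equiv.coe_mulLeft, inv_mul_cancel_left, map_mul, Module.End.mul_apply, mul_smul,
        LinearMap.map_smul_of_tower]
    simp_rw [h1]
    rw [← Finset.smul_sum, ← map_sum, hc'sum, map_zero, smul_zero]
  have hsplit : ∑ z : P, τ z v = ∑ z : P, d z • τ z v := by
    rw [← add_zero (∑ z : P, d z • τ z v), ← hzero, ← Finset.sum_add_distrib]
    apply Finset.sum_congr rfl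
    intro z _
    rw [← add_smul]
    simp [d]
  rw [hsplit]
  exact Submodule.sum_mem _ fun z _ => Submodule.smul_mem_smul (hd z) (hL z)

theorem sum_mem_of_free {P Ω M : Type*} [Group P] [Fintype P] [MulAction P Ω] [DecidableEq Ω]
    [AddCommGroup M] (A : AddSubgroup M) (f : Ω → M) (S : Finset Ω)
    (hstab : ∀ x : P, ∀ q ∈ S, x • q ∈ S)
    (hfree : ∀ x : P, ∀ q ∈ S, x • q = q → x = 1)
    (hA : ∀ q ∈ S, ∑ x : P, f (x • q) ∈ A) : ∑ q ∈ S, f q ∈ A := by
  induction' h : S.card using Nat.strong_induction_on with n ih generalizing S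
  rcases S.eq_empty_or_nonempty with rfl | ⟨q₀, hq₀⟩
  · simp
  · let O : Finset Ω := Finset.univ.image (fun x : P => x • q₀)
    have hOS : O ⊆ S := by
      intro q hq
      obtain ⟨x, -, rfl⟩ := Finset.mem_image.1 hq
      exact hstab x q₀ hq₀
    have hinj : Function.Injective (fun x : P => x • q₀) := by
      intro x y hxy
      have h1 : (y⁻¹ * x) • q₀ = q₀ := by
        rw [mul_smul]
        show y⁻¹ • (x • q₀) = q₀
        have : x • q₀ = y • q₀ := hxy
        rw [this, inv_smul_smul]
      have h2 := hfree _ q₀ hq₀ h1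
      exact (inv_mul_eq_one.1 h2).symm
    have hsumO : ∑ q ∈ O, f q = ∑ x : P, f (x • q₀) :=
      Finset.sum_image (fun x _ y _ hxy => hinj hxy)
    have hq₀O : q₀ ∈ O := Finset.mem_image.2 ⟨1, Finset.mem_univ _, one_smul _ _⟩
    have hcard : (S \ O).card < n := by
      rw [← h]
      apply Finset.card_lt_card
      refine ⟨Finset.sdiff_subset, fun hsub => ?_⟩
      exact (Finset.mem_sdiff.1 (hsub hq₀)).2 hq₀O
    have hrest : ∑ q ∈ S \ O, f q ∈ A := by
      apply ih _ hcard (S \ O) _ _ _ rfl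
      · intro x q hq
        rw [Finset.mem_sdiff] at hq ⊢
        refine ⟨hstab x q hq.1, fun hxq => hq.2 ?_⟩
        obtain ⟨y, -, hy⟩ := Finset.mem_image.1 hxq
        refine Finset.mem_image.2 ⟨x⁻¹ * y, Finset.mem_univ _, ?_⟩
        show (x⁻¹ * y) • q₀ = q
        have hy' : y • q₀ = x • q := hy
        rw [mul_smul, hy', inv_smul_smul]
      · intro x q hq
        exact hfree x q (Finset.mem_sdiff.1 hq).1
      · intro q hq
        exact hA q (Finset.mem_sdiff.1 hq).1
    rw [← Finset.sum_sdiff hOS, hsumO]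
    exact A.add_mem hrest (hA q₀ hq₀)

theorem free_of_TI {G : Type*} [Group G] [Finite G] {p : ℕ} [Fact p.Prime] (P : Sylow p G)
    (hTI : ∀ g : G, g ∉ Subgroup.normalizer ((P : Subgroup G) : Set G) →
      (P : Subgroup G) ⊓ (MulAut.conj g • (P : Subgroup G)) = ⊥)
    (H : Subgroup G) (hH : Subgroup.normalizer ((P : Subgroup G) : Set G) ≤ H)
    (x : G) (hx : x ∈ (P : Subgroup G)) (t : G) (ht : t ∉ H) (hfix : t⁻¹ * x * t ∈ H) : x = 1 := by
  have hPH : (P : Subgroup G) ≤ H := Subgroup.le_normalizer.trans hH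
  let PH : Sylow p H := P.subtype hPH
  let Q₀ : Subgroup H := ((MulAut.conj t⁻¹ • P : Sylow p G) : Subgroup G).subgroupOf H
  have hQ₀ : IsPGroup p Q₀ := (MulAut.conj t⁻¹ • P : Sylow p G).2.comap_subtype
  obtain ⟨Q, hQ⟩ := hQ₀.exists_le_sylow
  obtain ⟨h, hh⟩ := MulAction.exists_smul_eq H PH Q
  have hy : (⟨t⁻¹ * x * t, hfix⟩ : H) ∈ Q₀ := by
    rw [Subgroup.mem_subgroupOf]
    show t⁻¹ * x * t ∈ ((MulAut.conj t⁻¹ • P : Sylow p G) : Subgroup G)
    rw [Sylow.pointwise_smul_def, Subgroup.mem_pointwise_smul_iff_inv_smul_mem]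
    simpa [MulAut.smul_def, mul_assoc] using hx
  have hy2 : (⟨t⁻¹ * x * t, hfix⟩ : H) ∈ (h • PH : Sylow p H) := by
    rw [hh]; exact hQ hy
  have hy2' : (⟨t⁻¹ * x * t, hfix⟩ : H) ∈ ((MulAut.conj h • PH : Sylow p H) : Subgroup H) := hy2
  rw [Sylow.pointwise_smul_def, Subgroup.mem_pointwise_smul_iff_inv_smul_mem] at hy2'
  have hy3 : (h : G)⁻¹ * (t⁻¹ * x * t) * (h : G) ∈ (P : Subgroup G) := by
    have h1 : (MulAut.conj h)⁻¹ • (⟨t⁻¹ * x * t, hfix⟩ : H) ∈ (P : Subgroup G).subgroupOf H := hy2'
    rw [Subgroup.mem_subgroupOf] at h1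
    simpa [MulAut.smul_def, mul_assoc] using h1
  by_contra hx1
  have hth : t * h ∈ Subgroup.normalizer ((P : Subgroup G) : Set G) := by
    by_contra hn
    have h1 := hTI _ hn
    have h2 : x ∈ (P : Subgroup G) ⊓ (MulAut.conj (t * h) • (P : Subgroup G)) := by
      rw [Subgroup.mem_inf]
      refine ⟨hx, ?_⟩
      rw [Subgroup.mem_pointwise_smul_iff_inv_smul_mem]
      simpa [MulAut.smul_def, mul_assoc] using hy3
    rw [h1] at h2
    exact hx1 h2
  apply ht
  have h3 := H.mul_mem (hH hth) (H.inv_mem h.2)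
  simpa using h3

/-- regular case -/
theorem invariant_unique_of_linearIndependent {P : Type*} [Group P] [Fintype P]
    {M : Type*} [AddCommGroup M] [Module ℂ M] [FiniteDimensional ℂ M] (τ : P →* (M →ₗ[ℂ] M))
    (hdim : Module.finrank ℂ M ≤ Fintype.card P) (v : M)
    (hind : LinearIndependent ℂ (fun x : P => τ x v)) (u : M) (hu : ∀ x, τ x u = u) :
    ∃ a : ℂ, u = a • ∑ x : P, τ x v := by
  classical
  have hcard : Fintype.card P = Module.finrank ℂ M :=
    le_antisymm hind.fintype_card_le_finrank hdim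
  have hspan := hind.span_eq_top_of_card_eq_finrank' hcard
  have humem : u ∈ Submodule.span ℂ (Set.range (fun x : P => τ x v)) := by
    rw [hspan]; trivial
  obtain ⟨a, ha⟩ := (Submodule.mem_span_range_iff_exists_fun ℂ).1 humem
  have hconst : ∀ y : P, a y = a 1 := by
    intro y
    have h1 : ∑ x : P, a x • τ x v = ∑ x : P, a (y * x) • τ x v := by
      have h2 : τ y⁻¹ u = u := hu _
      rw [← ha] at h2
      rw [← h2, map_sum, ← Equiv.sum_comp (Equiv.mulLeft y)]
      apply Finset.sum_congr rfl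
      intro x _
      rw [map_smul, ← Module.End.mul_apply, ← map_mul, Equiv.coe_mulLeft, inv_mul_cancel_left]
    have h3 : ∑ x : P, (a x - a (y * x)) • τ x v = 0 := by
      simp_rw [sub_smul]
      rw [Finset.sum_sub_distrib, h1, sub_self]
    have h4 := (Fintype.linearIndependent_iff.1 hind) _ h3 1
    rw [mul_one] at h4
    exact (sub_eq_zero.1 h4).symm
  refine ⟨a 1, ?_⟩
  rw [← ha, Finset.smul_sum]
  exact Finset.sum_congr rfl fun x _ => by rw [hconst x]

theorem invariant_of_TI {G : Type*} [Group G] [Finite G] {p : ℕ} [Fact p.Prime] (P : Sylow p G)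
    (hTI : ∀ g : G, g ∉ Subgroup.normalizer ((P : Subgroup G) : Set G) →
      (P : Subgroup G) ⊓ (MulAut.conj g • (P : Subgroup G)) = ⊥)
    (H : Subgroup G) (hH : Subgroup.normalizer ((P : Subgroup G) : Set G) ≤ H)
    {M : Type*} [AddCommGroup M] [Module ℂ M] [FiniteDimensional ℂ M] (τ : Representation ℂ G M)
    (hdim : Module.finrank ℂ M ≤ Nat.card (P : Subgroup G)) (e : M) (he : e ≠ 0)
    (heG : ∀ g, τ g e = e) (w : M) (hw : ∀ h ∈ H, τ h w = w) (g : G) : τ g w = w := by
  classical
  have := Fintype.ofFinite G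
  have hPH : (P : Subgroup G) ≤ H := Subgroup.le_normalizer.trans hH
  let τP : (P : Subgroup G) →* (M →ₗ[ℂ] M) := τ.comp (P : Subgroup G).subtype
  have hτP : ∀ (x : (P : Subgroup G)) (m : M), τP x m = τ (x : G) m := fun _ _ => rfl
  by_cases hind : ∃ v : M, LinearIndependent ℂ (fun x : (P : Subgroup G) => τP x v)
  · obtain ⟨v, hv⟩ := hind
    rw [Nat.card_eq_fintype_card] at hdim
    obtain ⟨a, ha⟩ := invariant_unique_of_linearIndependent τP hdim v hv e (fun x => heG _)
    obtain ⟨b, hb⟩ := invariant_unique_of_linearIndependent τP hdim v hv w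
      (fun x => hw _ (hPH x.2))
    have ha0 : a ≠ 0 := by
      rintro rfl
      rw [zero_smul] at ha
      exact he ha
    have hwe : w = (b * a⁻¹) • e := by
      rw [ha, smul_smul, mul_assoc, inv_mul_cancel₀ ha0, mul_one, hb]
    rw [hwe, map_smul, heG]
  · push Not at hind
    -- the function on cosets
    let f : G ⧸ H → M := fun q => Quotient.liftOn' q (fun t => τ t w) (by
      intro t₁ t₂ h12
      rw [QuotientGroup.leftRel_apply] at h12
      have h1 : t₂ = t₁ * (t₁⁻¹ * t₂) := by group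
      show τ t₁ w = τ t₂ w
      rw [h1, map_mul, Module.End.mul_apply, hw _ h12])
    have hfmk : ∀ t : G, f (QuotientGroup.mk t) = τ t w := fun t => rfl
    have hfsmul : ∀ (s : G) (q : G ⧸ H), f (s • q) = τ s (f q) := by
      intro s q
      induction q using QuotientGroup.induction_on with
      | H t =>
        rw [MulAction.Quotient.smul_mk, hfmk, hfmk, smul_eq_mul, map_mul, Module.End.mul_apply]
    let z : M := ∑ q : G ⧸ H, f q
    have hz : ∀ s : G, τ s z = z := by
      intro s
      show τ s (∑ q : G ⧸ H, f q) = ∑ q : G ⧸ H, f q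
      rw [map_sum, ← Equiv.sum_comp (MulAction.toPerm s) f]
      exact Finset.sum_congr rfl fun q _ => (hfsmul s q).symm
    let m : ℂ := (Fintype.card (G ⧸ H) : ℂ)
    have hm : m ≠ 0 := by
      have : Fintype.card (G ⧸ H) ≠ 0 := Fintype.card_ne_zero
      show ((Fintype.card (G ⧸ H) : ℕ) : ℂ) ≠ 0
      exact_mod_cast this
    let w₀ : M := w - m⁻¹ • z
    let f₀ : G ⧸ H → M := fun q => f q - m⁻¹ • z
    have hf₀smul : ∀ (s : G) (q : G ⧸ H), f₀ (s • q) = τ s (f₀ q) := by
      intro s q
      show f (s • q) - m⁻¹ • z = τ s (f q - m⁻¹ • z)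
      rw [map_sub, map_smul, hz, hfsmul]
    have hf₀one : f₀ (QuotientGroup.mk 1) = w₀ := by
      show f (QuotientGroup.mk 1) - m⁻¹ • z = w - m⁻¹ • z
      rw [hfmk, map_one, Module.End.one_apply]
    have hf₀mk : ∀ t : G, f₀ (QuotientGroup.mk t) = τ t w₀ := by
      intro t
      rw [← hf₀one, ← hf₀smul, MulAction.Quotient.smul_mk, smul_eq_mul, mul_one]
    have hf₀sum : ∑ q : G ⧸ H, f₀ q = 0 := by
      show ∑ q : G ⧸ H, (f q - m⁻¹ • z) = 0
      rw [Finset.sum_sub_distrib, Finset.sum_const, Finset.card_univ, ← Nat.cast_smul_eq_nsmul ℂ,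
        smul_smul]
      show z - (m * m⁻¹) • z = 0
      rw [mul_inv_cancel₀ hm, one_smul, sub_self]
    suffices hw₀ : w₀ = 0 by
      have h1 : w = m⁻¹ • z := sub_eq_zero.1 hw₀
      rw [h1, map_smul, hz]
    obtain ⟨B, hB⟩ := exists_valuationSubring p Fact.out
    let L : Submodule B M := Submodule.span B (Set.range (fun t : G => τ t w₀))
    have hLfg : L.FG := Submodule.fg_span (Set.finite_range _)
    have hLmem : ∀ t : G, τ t w₀ ∈ L := fun t => Submodule.subset_span ⟨t, rfl⟩
    have hLstab : ∀ (s : G) (n : M), n ∈ L → τ s n ∈ L := by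
      intro s n hn
      induction hn using Submodule.span_induction with
      | mem x hx =>
        obtain ⟨t, rfl⟩ := hx
        show τ s (τ t w₀) ∈ L
        rw [← Module.End.mul_apply, ← map_mul]
        exact hLmem _
      | zero => rw [map_zero]; exact L.zero_mem
      | add x y _ _ hx hy => rw [map_add]; exact L.add_mem hx hy
      | smul r x _ hx => rw [LinearMap.map_smul_of_tower]; exact L.smul_mem r hx
    let 𝔪 : Ideal B := IsLocalRing.maximalIdeal B
    have hmLstab : ∀ (s : G) (n : M), n ∈ 𝔪 • L → τ s n ∈ 𝔪 • L := by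
      intro s n hn
      induction hn using Submodule.smul_induction_on' with
      | smul r hr n hn =>
        rw [LinearMap.map_smul_of_tower]
        exact Submodule.smul_mem_smul hr (hLstab s n hn)
      | add x _ y _ hx hy => rw [map_add]; exact add_mem hx hy
    have hsm : ∀ (x : (P : Subgroup G)) (t : G),
        x • (QuotientGroup.mk t : G ⧸ H) = QuotientGroup.mk ((x : G) * t) := fun _ _ => rfl
    have hkey : ∑ q ∈ Finset.univ.erase (QuotientGroup.mk 1 : G ⧸ H), f₀ q ∈ (𝔪 • L).toAddSubgroup := by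
      apply sum_mem_of_free (P := (P : Subgroup G))
      · intro x q hq
        rw [Finset.mem_erase] at hq ⊢
        refine ⟨fun h1 => hq.1 ?_, Finset.mem_univ _⟩
        have h2 : q = x⁻¹ • (QuotientGroup.mk 1 : G ⧸ H) := by rw [← h1, inv_smul_smul]
        rw [h2, hsm, mul_one]
        rw [QuotientGroup.eq]
        simpa using hPH x.2
      · intro x q hq hxq
        rw [Finset.mem_erase] at hq
        induction q using QuotientGroup.induction_on with
        | H t =>
          have ht : t ∉ H := by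
            intro ht
            apply hq.1
            rw [QuotientGroup.eq]
            simpa using ht
          rw [hsm, QuotientGroup.eq] at hxq
          have h3 : t⁻¹ * (x : G)⁻¹ * t ∈ H := by simpa [mul_assoc] using hxq
          have h4 := free_of_TI P hTI H hH (x : G)⁻¹ ((P : Subgroup G).inv_mem x.2) t ht h3
          exact Subtype.ext (inv_eq_one.1 h4)
      · intro q _
        induction q using QuotientGroup.induction_on with
        | H t =>
          have h5 : ∀ x : (P : Subgroup G), f₀ (x • (QuotientGroup.mk t : G ⧸ H))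
              = τP x (τ t w₀) := by
            intro x
            rw [hsm, hf₀mk, hτP, map_mul, Module.End.mul_apply]
          simp_rw [h5]
          apply sum_mem_smul P.2 B hB τP (τ t w₀) (hind _) L
          intro x
          rw [hτP]
          exact hLstab _ _ (hLmem t)
    have hw₀mem : w₀ ∈ 𝔪 • L := by
      have h6 : w₀ = - ∑ q ∈ Finset.univ.erase (QuotientGroup.mk 1 : G ⧸ H), f₀ q := by
        rw [eq_neg_iff_add_eq_zero, ← hf₀one, Finset.add_sum_erase _ _ (Finset.mem_univ _), hf₀sum]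
      rw [h6]
      exact (𝔪 • L).neg_mem hkey
    have hle : L ≤ 𝔪 • L := by
      apply Submodule.span_le.2
      rintro _ ⟨t, rfl⟩
      exact hmLstab t _ hw₀mem
    have hbot : L = ⊥ := Submodule.eq_bot_of_le_smul_of_le_jacobson_bot 𝔪 L hLfg hle
      (IsLocalRing.maximalIdeal_le_jacobson _)
    have h7 := hLmem 1
    rw [hbot, map_one, Module.End.one_apply] at h7
    exact h7

end Cfsg.Agent.Lib.Helper3
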